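import Cfsg.Agent.H612.Even
import Cfsg.Agent.H612.Heredity
import Cfsg.Agent.H612.Inverted
import Cfsg.Agent.H612.MinNormal

/-!
# Reduction to simple groups

`main`: if `EvenOver S` holds for all nonabelian finite simple groups `S` then a finite group all of
whose `k`-fixed irreducible characters have odd degree has a normal Sylow 2-subgroup.
-/

set_option autoImplicit false

namespace Cfsg.Agent.H612.Reduce

open Cfsg Cfsg.Agent.Characters Cfsg.Agent.Blocks Cfsg.Agent.H686.CharKit
open Cfsg.Agent.H612.Base Cfsg.Agent.H612.Heredity Cfsg.Agent.H612.Even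
open Cfsg.Agent.H612.MinNormal

universe u

/-- The nonabelian minimal normal subgroup case. -/
theorem nonabelian_case {G : Type u} [Group G] [Finite G] {k : ℕ} (hk : KM G k)
    (N : Subgroup G) [N.Normal] (h2 : IsPGroup 2 (G ⧸ N)) (S : Subgroup G)
    (hSna : ¬ IsMulCommutative S) (hsimple : IsSimpleGroup S) (hS : EvenOver S)
    (hle : N ≤ S ⊔ Subgroup.centralizer (S : Set G))
    (hcj : ∀ g : G, cj g S = S ∨ cj g S ≤ Subgroup.centralizer (S : Set G)) :
    ∃ χ : IrrCharacter G, Fx k (χ : G → ℂ) ∧ Even (charDegree (χ : G → ℂ)) := by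
  classical
  have := Fintype.ofFinite G
  set T := Subgroup.normalizer (S : Set G) with hT
  have hST : S ≤ T := Subgroup.le_normalizer
  have hCT : Subgroup.centralizer (S : Set G) ≤ T := Subgroup.centralizer_le_normalizer _
  set C' : Subgroup T := (Subgroup.centralizer (S : Set G)).subgroupOf T with hC'
  have hSn : (S.subgroupOf T).Normal := by
    rw [hT]
    infer_instance
  have hC'n : C'.Normal := by
    constructor
    intro c hc t
    rw [hC', Subgroup.mem_subgroupOf, Subgroup.mem_centralizer_iff] at hc ⊢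
    intro s hs
    have ht : (t : G) ∈ Subgroup.normalizer (S : Set G) := t.2
    rw [Subgroup.mem_normalizer_iff''] at ht
    have h3 := hc ((t : G)⁻¹ * s * t) ((ht s).1 hs)
    push_cast
    calc s * ((t : G) * c * (t : G)⁻¹) = t * (((t : G)⁻¹ * s * t) * c) * (t : G)⁻¹ := by group
      _ = t * (c * ((t : G)⁻¹ * s * t)) * (t : G)⁻¹ := by rw [h3]
      _ = t * c * (t : G)⁻¹ * s := by group
  let φ : S →* T ⧸ C' := (QuotientGroup.mk' C').comp (Subgroup.inclusion hST)
  have hφ : ∀ s : S, φ s = QuotientGroup.mk (Subgroup.inclusion hST s) := fun s => rfl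
  have hφinj : Function.Injective φ := by
    rw [injective_iff_map_eq_one]
    intro s hs
    rw [hφ, QuotientGroup.eq_one_iff, hC', Subgroup.mem_subgroupOf,
      Subgroup.mem_centralizer_iff] at hs
    have h3 : s ∈ Subgroup.center S := by
      rw [Subgroup.mem_center_iff]
      intro t
      exact Subtype.ext (hs t t.2)
    rcases hsimple.eq_bot_or_eq_top_of_normal (Subgroup.center S) inferInstance with h4 | h4
    · rw [h4, Subgroup.mem_bot] at h3
      exact h3
    · exfalso
      apply hSna
      refine ⟨⟨fun a b => ?_⟩⟩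
      have h5 : a ∈ Subgroup.center S := by rw [h4]; exact Subgroup.mem_top a
      exact (Subgroup.mem_center_iff.1 h5 b).symm
  have hrange : φ.range = (S.subgroupOf T).map (QuotientGroup.mk' C') := by
    ext x
    constructor
    · rintro ⟨s, rfl⟩
      exact ⟨Subgroup.inclusion hST s, s.2, rfl⟩
    · rintro ⟨t, ht, rfl⟩
      exact ⟨⟨t, ht⟩, rfl⟩
  have hrn : φ.range.Normal := by
    rw [hrange]
    exact hSn.map _ (QuotientGroup.mk'_surjective C')
  have hpg : IsPGroup 2 ((T ⧸ C') ⧸ φ.range) := by
    intro a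
    obtain ⟨b, rfl⟩ := QuotientGroup.mk_surjective a
    obtain ⟨t, rfl⟩ := QuotientGroup.mk_surjective b
    obtain ⟨j, hj⟩ := h2 ((t : G) : G ⧸ N)
    refine ⟨j, ?_⟩
    rw [← QuotientGroup.mk_pow, QuotientGroup.eq_one_iff] at hj
    rw [← QuotientGroup.mk_pow, ← QuotientGroup.mk_pow, QuotientGroup.eq_one_iff]
    have h3 : S ⊔ Subgroup.centralizer (S : Set G) ≤
        ((φ.range).comap (QuotientGroup.mk' C')).map T.subtype := by
      refine sup_le ?_ ?_
      · intro s hs
        exact ⟨⟨s, hST hs⟩, ⟨⟨s, hs⟩, rfl⟩, rfl⟩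
      · intro c hc
        refine ⟨⟨c, hCT hc⟩, ?_, rfl⟩
        have h4 : (QuotientGroup.mk' C') ⟨c, hCT hc⟩ = 1 := by
          rw [QuotientGroup.mk'_apply, QuotientGroup.eq_one_iff]
          exact hc
        rw [SetLike.mem_coe, Subgroup.mem_comap, h4]
        exact Subgroup.one_mem _
    obtain ⟨t', ht', h5⟩ := h3 (hle hj)
    have h6 : t' = t ^ 2 ^ j := Subtype.ext (by rw [Subgroup.coe_pow]; exact h5)
    rw [← h6]
    exact ht'
  have hKA : KM (T ⧸ C') k :=
    (hk.sub T).map_of_surjective (QuotientGroup.mk' C') (QuotientGroup.mk'_surjective C')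
  obtain ⟨χ, hχk, hχe, n, hn, hne⟩ := hS (T ⧸ C') φ.range
    ⟨MonoidHom.ofInjective hφinj⟩ hpg k hKA
  set ψ : IrrCharacter T := infl C' χ with hψ
  have hψk : Fx k (ψ : T → ℂ) := by
    intro t
    rw [hψ, infl_apply, infl_apply, QuotientGroup.mk_pow]
    exact hχk t
  have hψ1 : (ψ : T → ℂ) 1 = (χ : T ⧸ C' → ℂ) 1 := by
    rw [hψ, infl_apply]
    rfl
  have hirr : IsIrrCharacter G (indFun T (ψ : T → ℂ)) := by
    refine irr_ind T S hST (ψ : T → ℂ) ψ.2 ?_ ?_
    · intro x
      have := Fintype.ofFinite S
      have := Fintype.ofFinite (S.subgroupOf T)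
      rw [finsum_eq_sum_of_fintype]
      have h3 := sum_coset_eq_zero (S.subgroupOf T) ψ (by
        obtain ⟨s, hs⟩ := hn
        refine ⟨Subgroup.inclusion hST s, s.2, ?_⟩
        rw [hψ1, hψ, infl_apply, ← hφ, hs]
        exact hne) x
      rw [← h3]
      symm
      refine Fintype.sum_equiv (Subgroup.subgroupOfEquivOfLe hST).toEquiv _ _ fun n => ?_
      have h4 := Core.isIrr_isClassFunction ψ.2 ((n : T) * x) x
      rw [← h4]
      have h5 : x * ((n : T) * x) * x⁻¹ =
          x * ⟨((Subgroup.subgroupOfEquivOfLe hST).toEquiv n : G), hST (Subtype.prop _)⟩ := by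
        apply Subtype.ext
        show (x : G) * ((n : T) * x) * (x : G)⁻¹ = x * (n : T)
        group
      rw [h5]
    · intro g hg s
      have h3 : g⁻¹ * (s : G) * g ∈ Subgroup.centralizer (S : Set G) := by
        have h4 : g⁻¹ * (s : G) * g ∈ cj g⁻¹ S := by
          rw [mem_cj]
          have : g⁻¹⁻¹ * (g⁻¹ * (s : G) * g) * g⁻¹ = s := by group
          rw [this]
          exact s.2
        rcases hcj g⁻¹ with h5 | h5
        · exfalso
          apply hg
          rw [← mem_normalizer_iff_cj] at h5
          have := (Subgroup.normalizer (S : Set G)).inv_mem h5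
          rwa [inv_inv] at this
        · exact h5 h4
      refine ⟨hCT h3, fun x => ?_⟩
      rw [hψ, infl_apply, infl_apply]
      rw [QuotientGroup.mk_mul, (QuotientGroup.eq_one_iff _).2 (show
        (⟨g⁻¹ * (s : G) * g, hCT h3⟩ : T) ∈ C' from h3), mul_one]
  refine ⟨⟨indFun T (ψ : T → ℂ), hirr⟩, fx_ind hk T _ hψk, ?_⟩
  have h3 : charDegree (indFun T (ψ : T → ℂ)) = T.index * charDegree (χ : T ⧸ C' → ℂ) := by
    have h4 := charDegree_irr (⟨indFun T (ψ : T → ℂ), hirr⟩ : IrrCharacter G)
    have h5 := indFun_one T (ψ : T → ℂ)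
    rw [hψ1, ← charDegree_irr] at h5
    have h6 : (charDegree (indFun T (ψ : T → ℂ)) : ℂ) =
        ((T.index * charDegree (χ : T ⧸ C' → ℂ) : ℕ) : ℂ) := by
      rw [Nat.cast_mul, ← h5]
      exact h4
    exact_mod_cast h6
  show Even (charDegree (indFun T (ψ : T → ℂ)))
  rw [h3]
  exact hχe.mul_left _

/-- A Sylow subgroup normal in a normal subgroup containing it is normal. -/
theorem normal_of_le {G : Type u} [Group G] [Finite G] (P : Sylow 2 G) (M : Subgroup G)
    [M.Normal] (hP : (P : Subgroup G) ≤ M)
    (h : ∀ P' : Sylow 2 M, (P' : Subgroup M).Normal) : (P : Subgroup G).Normal := by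
  have : Fact (Nat.Prime 2) := ⟨Nat.prime_two⟩
  let P' : Sylow 2 M := P.subtype hP
  have h1 : (P' : Subgroup M).Normal := h P'
  have h2 : (P' : Subgroup M).Characteristic := Sylow.characteristic_of_normal P' h1
  have h3 : ((P' : Subgroup M).map M.subtype).Normal :=
    ConjAct.normal_of_characteristic_of_normal
  have h4 : (P' : Subgroup M).map M.subtype = (P : Subgroup G) := by
    rw [Sylow.coe_subtype, Subgroup.subgroupOf_map_subtype, inf_eq_left.2 hP]
  rwa [h4] at h3

/-- **The reduction.** -/
theorem main (hS : ∀ (S : Type u) [Group S] [Finite S] [IsSimpleGroup S],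
    ¬ IsMulCommutative S → EvenOver S) :
    ∀ (n : ℕ) (G : Type u) [Group G] [Finite G], Nat.card G = n → ∀ k : ℕ, KM G k → AO G k →
      ∀ P : Sylow 2 G, (P : Subgroup G).Normal := by
  intro n
  induction n using Nat.strong_induction_on with
  | _ n ih =>
  intro G _ _ hG k hk hAO P
  classical
  have hp2 : Fact (Nat.Prime 2) := ⟨Nat.prime_two⟩
  by_contra hP
  -- proper quotients are 2-groups
  have hquot : ∀ N : Subgroup G, ∀ _ : N.Normal, N ≠ ⊥ → IsPGroup 2 (G ⧸ N) := by
    intro N hN hNb
    have hlt : Nat.card (G ⧸ N) < n := by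
      rw [← hG, Subgroup.card_eq_card_quotient_mul_card_subgroup N]
      have h1 : 1 < Nat.card N := by
        rw [Subgroup.one_lt_card_iff_ne_bot]
        exact hNb
      exact lt_mul_of_one_lt_right Nat.card_pos h1
    have hsurj := QuotientGroup.mk'_surjective N
    have h1 := ih _ hlt (G ⧸ N) rfl k (hk.map_of_surjective _ hsurj) (hAO.quot N)
      (P.mapSurjective hsurj)
    rw [Sylow.coe_mapSurjective] at h1
    set M := ((P : Subgroup G).map (QuotientGroup.mk' N)).comap (QuotientGroup.mk' N) with hM
    have hMn : M.Normal := h1.comap _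
    have hPM : (P : Subgroup G) ≤ M := Subgroup.le_comap_map _ _
    have hidx : Odd M.index := by
      have h3 : M.index ∣ (P : Subgroup G).index := Subgroup.index_dvd_of_le hPM
      have h4 : ¬ 2 ∣ (P : Subgroup G).index := P.not_dvd_index
      rw [← Nat.not_even_iff_odd, even_iff_two_dvd]
      exact fun h5 => h4 (h5.trans h3)
    by_cases hMt : M = ⊤
    · have h3 : (P : Subgroup G).map (QuotientGroup.mk' N) = ⊤ := by
        rw [← Subgroup.map_comap_eq_self_of_surjective hsurj
          ((P : Subgroup G).map (QuotientGroup.mk' N)), ← hM, hMt, ← MonoidHom.range_eq_map,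
          MonoidHom.range_eq_top.2 hsurj]
      have h4 : IsPGroup 2 ((P : Subgroup G).map (QuotientGroup.mk' N)) := P.2.map _
      rw [h3] at h4
      exact h4.of_surjective (Subgroup.topEquiv : (⊤ : Subgroup (G ⧸ N)) ≃* G ⧸ N).toMonoidHom
        Subgroup.topEquiv.surjective
    · exfalso
      apply hP
      refine normal_of_le P M hPM fun P' => ?_
      have hlt' : Nat.card M < n := by
        rw [← hG]
        exact lt_of_le_of_ne (Subgroup.card_le_card_group M)
          (fun h5 => hMt (Subgroup.card_eq_iff_eq_top M |>.1 h5))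
      exact ih _ hlt' M rfl k (hk.sub M) (hAO.odd_index hk M hidx) P'
  -- a minimal normal subgroup
  have hnt : Nontrivial G := by
    by_contra hnt
    rw [not_nontrivial_iff_subsingleton] at hnt
    apply hP
    constructor
    intro a ha g
    have : g * a * g⁻¹ = a := Subsingleton.elim _ _
    rwa [this]
  obtain ⟨N, hN, hNb, hmin⟩ : ∃ N : Subgroup G, N.Normal ∧ N ≠ ⊥ ∧
      ∀ K : Subgroup G, K.Normal → K ≤ N → K = ⊥ ∨ K = N := by
    have hne : ({K : Subgroup G | K.Normal ∧ K ≠ ⊥}).Nonempty :=
      ⟨⊤, inferInstance, top_ne_bot⟩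
    obtain ⟨N, hN⟩ := (Set.toFinite {K : Subgroup G | K.Normal ∧ K ≠ ⊥}).exists_minimal hne
    refine ⟨N, hN.1.1, hN.1.2, fun K hK hle => ?_⟩
    by_cases hKb : K = ⊥
    · exact Or.inl hKb
    · exact Or.inr (le_antisymm hle (hN.2 ⟨hK, hKb⟩ hle))
  have h2N := hquot N hN hNb
  -- `G` is not a 2-group
  have hG2 : ¬ IsPGroup 2 G := by
    intro h1
    apply hP
    have h3 : (P : Subgroup G) = ⊤ := by
      have h4 : IsPGroup 2 (⊤ : Subgroup G) :=
        h1.of_surjective (Subgroup.topEquiv : (⊤ : Subgroup G) ≃* G).symm.toMonoidHom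
          (Subgroup.topEquiv : (⊤ : Subgroup G) ≃* G).symm.surjective
      exact (P.3 h4 le_top).symm
    rw [h3]
    infer_instance
  by_cases hab : ∀ a ∈ N, ∀ b ∈ N, a * b = b * a
  · -- abelian case
    have hNodd : Odd (Nat.card N) := by
      obtain ⟨R⟩ : Nonempty (Sylow 2 N) := inferInstance
      have hRn : (R : Subgroup N).Normal := ⟨fun r hr g => by
        have : g * r * g⁻¹ = r := by
          have h3 : g * r = r * g := Subtype.ext (hab g g.2 r r.2)
          rw [h3]
          group
        rwa [this]⟩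
      have hRc : (R : Subgroup N).Characteristic := Sylow.characteristic_of_normal R hRn
      have h3 : ((R : Subgroup N).map N.subtype).Normal :=
        ConjAct.normal_of_characteristic_of_normal
      rcases hmin _ h3 (Subgroup.map_subtype_le _) with h4 | h4
      · rw [Subgroup.map_eq_bot_iff_of_injective _ N.subtype_injective] at h4
        have h5 : ¬ 2 ∣ (R : Subgroup N).index := R.not_dvd_index
        rw [h4, Subgroup.index_bot, ← even_iff_two_dvd, Nat.not_even_iff_odd] at h5
        exact h5
      · exfalso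
        apply hG2
        have h5 : IsPGroup 2 N := by
          rw [← h4]
          exact R.2.map _
        intro g
        obtain ⟨i, hi⟩ := h2N (g : G ⧸ N)
        rw [← QuotientGroup.mk_pow, QuotientGroup.eq_one_iff] at hi
        obtain ⟨j, hj⟩ := h5 ⟨_, hi⟩
        refine ⟨i + j, ?_⟩
        have h6 := congrArg Subtype.val hj
        rw [pow_add, pow_mul]
        simpa using h6
    -- the complement
    have hNP : N ⊓ (P : Subgroup G) = ⊥ := by
      refine (Subgroup.disjoint_of_coprime_natCard ?_).eq_bot
      obtain ⟨j, hj⟩ := IsPGroup.iff_card.1 P.2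
      rw [hj]
      exact Nat.Coprime.pow_right j (Nat.coprime_two_right.2 hNodd)
    have hNP' : N ⊔ (P : Subgroup G) = ⊤ := by
      have h3 : (N ⊔ (P : Subgroup G)).index = 1 := by
        have h4 : (N ⊔ (P : Subgroup G)).index ∣ (P : Subgroup G).index :=
          Subgroup.index_dvd_of_le le_sup_right
        have h5 : (N ⊔ (P : Subgroup G)).index ∣ N.index := Subgroup.index_dvd_of_le le_sup_left
        obtain ⟨j, hj⟩ := IsPGroup.iff_card.1 h2N
        have h6 : N.index = 2 ^ j := hj
        have h7 : Nat.Coprime (2 ^ j) (P : Subgroup G).index :=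
          Nat.Coprime.pow_left j ((Nat.Prime.coprime_iff_not_dvd Nat.prime_two).2 P.not_dvd_index)
        exact Nat.eq_one_of_dvd_coprimes h7 (h6 ▸ h5) h4
      exact Subgroup.index_eq_one.1 h3
    -- a central involution of `P`
    have hPnt : Nontrivial P := by
      refine (Subgroup.nontrivial_iff_ne_bot (P : Subgroup G)).2 fun h3 => ?_
      apply hP
      rw [h3]
      infer_instance
    obtain ⟨z, hz1, hzz⟩ : ∃ z : Subgroup.center P, z ≠ 1 ∧ z ^ 2 = 1 := by
      have h3 : Nontrivial (Subgroup.center P) := P.2.center_nontrivial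
      have h4 : IsPGroup 2 (Subgroup.center P) := P.2.to_subgroup _
      obtain ⟨w, hw⟩ := exists_ne (1 : Subgroup.center P)
      obtain ⟨j, _, hj⟩ := (Nat.dvd_prime_pow Nat.prime_two).1
        (orderOf_dvd_of_pow_eq_one (h4 w).choose_spec)
      have hj0 : j ≠ 0 := by
        rintro rfl
        rw [pow_zero] at hj
        exact hw (orderOf_eq_one_iff.1 hj)
      refine ⟨w ^ 2 ^ (j - 1), ?_, ?_⟩
      · intro h5
        have h6 := orderOf_dvd_of_pow_eq_one h5
        rw [hj] at h6
        have h7 := (Nat.pow_dvd_pow_iff_le_right (by norm_num : 1 < 2)).1 h6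
        omega
      · rw [← pow_mul, ← pow_succ, Nat.sub_add_cancel (Nat.pos_of_ne_zero hj0), ← hj,
          pow_orderOf_eq_one]
    set y : G := ((z : P) : G) with hy
    have hyP : ∀ p ∈ (P : Subgroup G), p * y = y * p := by
      intro p hp
      have h3 := Subgroup.mem_center_iff.1 z.2 ⟨p, hp⟩
      exact congrArg Subtype.val h3
    have hyy : y * y = 1 := by
      have h3 := congrArg (fun w : Subgroup.center P => (((w : Subgroup.center P) : P) : G)) hzz
      simp only [pow_two] at h3
      exact h3
    have hy1 : y ≠ 1 := by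
      intro h3
      apply hz1
      apply Subtype.ext
      apply Subtype.ext
      exact h3
    have hyinv : y⁻¹ = y := inv_eq_of_mul_eq_one_left hyy
    set K : Subgroup G := N ⊓ Subgroup.centralizer ({y} : Set G) with hK
    have hKn : K.Normal := by
      have h3 : N ⊔ (P : Subgroup G) ≤ Subgroup.normalizer (K : Set G) := by
        refine sup_le ?_ ?_
        · intro m hm
          rw [Subgroup.mem_normalizer_iff]
          intro x
          by_cases hx : x ∈ N
          · have h4 : m * x * m⁻¹ = x := by rw [hab m hm x hx]; group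
            rw [h4]
          · refine ⟨fun h4 => absurd h4.1 hx, fun h4 => ?_⟩
            exfalso
            apply hx
            have h5 := hN.conj_mem _ h4.1 m⁻¹
            have h6 : m⁻¹ * (m * x * m⁻¹) * m⁻¹⁻¹ = x := by group
            rwa [h6] at h5
        · have key : ∀ p ∈ (P : Subgroup G), ∀ x ∈ K, p * x * p⁻¹ ∈ K := by
            intro p hp x hx
            refine ⟨hN.conj_mem _ hx.1 p, ?_⟩
            have h4 : x ∈ Subgroup.centralizer ({y} : Set G) := hx.2
            show p * x * p⁻¹ ∈ Subgroup.centralizer ({y} : Set G)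
            rw [Subgroup.mem_centralizer_singleton_iff] at h4 ⊢
            have h5 := hyP p hp
            have h6 : p⁻¹ * y = y * p⁻¹ := by
              have := hyP p⁻¹ ((P : Subgroup G).inv_mem hp)
              exact this
            calc p * x * p⁻¹ * y = p * x * (p⁻¹ * y) := by group
              _ = p * (x * y) * p⁻¹ := by rw [h6]; group
              _ = p * (y * x) * p⁻¹ := by rw [h4]
              _ = (p * y) * x * p⁻¹ := by group
              _ = y * (p * x * p⁻¹) := by rw [h5]; group
          intro p hp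
          rw [Subgroup.mem_normalizer_iff]
          intro x
          refine ⟨key p hp x, fun hx => ?_⟩
          have h4 := key p⁻¹ ((P : Subgroup G).inv_mem hp) _ hx
          have h5 : p⁻¹ * (p * x * p⁻¹) * p⁻¹⁻¹ = x := by group
          rwa [h5] at h4
      rw [hNP', top_le_iff, Subgroup.normalizer_eq_top_iff] at h3
      exact h3
    rcases hmin K hKn inf_le_left with hKb | hKN
    · -- `y` inverts `N`
      have hinv : ∀ m ∈ N, y * m * y⁻¹ = m⁻¹ := by
        intro m hm
        have h3 : m * (y * m * y⁻¹) ∈ K := by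
          have h4 : y * m * y⁻¹ ∈ N := hN.conj_mem m hm y
          refine ⟨N.mul_mem hm h4, ?_⟩
          show m * (y * m * y⁻¹) ∈ Subgroup.centralizer ({y} : Set G)
          rw [Subgroup.mem_centralizer_singleton_iff]
          have h5 := hab m hm _ h4
          calc m * (y * m * y⁻¹) * y = m * y * m := by group
            _ = y * (y⁻¹ * m * y * m) := by group
            _ = y * ((y * m * y⁻¹) * m) := by rw [hyinv]
            _ = y * (m * (y * m * y⁻¹)) := by rw [h5]
        rw [hKb, Subgroup.mem_bot] at h3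
        exact eq_inv_of_mul_eq_one_right h3
      obtain ⟨χ, h3, h4⟩ := Inverted.exists_inverted hk N (P : Subgroup G) hab hNodd hNb hNP hNP' y hinv
      exact (Nat.not_odd_iff_even.2 h4) (hAO χ h3)
    · -- `y` is central
      have hcen : ∀ g : G, g * y = y * g := by
        have h3 : N ⊔ (P : Subgroup G) ≤ Subgroup.centralizer ({y} : Set G) := by
          refine sup_le ?_ ?_
          · rw [← hKN]
            exact inf_le_right
          · intro p hp
            rw [Subgroup.mem_centralizer_singleton_iff]
            exact hyP p hp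
        intro g
        have h4 : g ∈ Subgroup.centralizer ({y} : Set G) := h3 (by rw [hNP']; exact Subgroup.mem_top g)
        exact Subgroup.mem_centralizer_singleton_iff.1 h4
      have hZn : (Subgroup.zpowers y).Normal := by
        constructor
        intro x hx g
        obtain ⟨i, rfl⟩ := Subgroup.mem_zpowers_iff.1 hx
        have h3 : Commute g (y ^ i) := Commute.zpow_right (hcen g) i
        have h4 : g * y ^ i * g⁻¹ = y ^ i := by rw [h3.eq]; group
        rw [h4]
        exact hx
      have h3 := hquot _ hZn (by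
        rw [Ne, Subgroup.zpowers_eq_bot]
        exact hy1)
      apply hG2
      intro g
      obtain ⟨i, hi⟩ := h3 (g : G ⧸ Subgroup.zpowers y)
      rw [← QuotientGroup.mk_pow, QuotientGroup.eq_one_iff] at hi
      obtain ⟨j, hj⟩ := Subgroup.mem_zpowers_iff.1 hi
      refine ⟨i + 1, ?_⟩
      rw [pow_succ, pow_mul, ← hj, ← zpow_natCast, ← zpow_mul, mul_comm, zpow_mul]
      norm_cast
      rw [pow_two, hyy, one_zpow]
  · -- nonabelian case
    obtain ⟨S, _, _, hsimple, hSna, hle, hcj⟩ := exists_factor N hNb hmin hab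
    obtain ⟨χ, h3, h4⟩ := nonabelian_case hk N h2N S hSna hsimple (hS S hSna) hle hcj
    exact (Nat.not_odd_iff_even.2 h4) (hAO χ h3)

end Cfsg.Agent.H612.Reduce
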