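import Mathlib

/-!
# The Borel subgroup of `SU₃(3)` in an orthogonal module of dimension 6

The linear algebra: `A`, `B` generate an extraspecial group of order 27 with centre generated by `X`, `S` has
order 8, inverts `X`, and `S ^ 2` maps `A` to `B` and `B` to `A⁻¹`. If `S` has determinant one, the space has no
nondegenerate invariant symmetric form.
-/

set_option autoImplicit false

namespace Cfsg.Agent.H612.UThreeLin

open Module

variable {V : Type*} [AddCommGroup V] [Module ℂ V]

/-- The relations. -/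
structure Rel (A B X S : V →ₗ[ℂ] V) : Prop where
  a3 : ∀ v, A (A (A v)) = v
  b3 : ∀ v, B (B (B v)) = v
  ab : ∀ v, A (B v) = X (B (A v))
  xa : ∀ v, X (A v) = A (X v)
  xb : ∀ v, X (B v) = B (X v)
  x3 : ∀ v, X (X (X v)) = v
  xs : ∀ v, X (S v) = S (X (X v))
  s8 : ∀ v, S (S (S (S (S (S (S (S v))))))) = v
  sa : ∀ v, S (S (A v)) = B (S (S v))
  sb : ∀ v, S (S (B v)) = A (A (S (S v)))

theorem exists_omega : ∃ ω : ℂ, ω ^ 2 + ω + 1 = 0 := by
  obtain ⟨z, hz⟩ := IsAlgClosed.exists_pow_nat_eq (-3 : ℂ) (n := 2) (by norm_num)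
  refine ⟨(-1 + z) / 2, ?_⟩
  linear_combination hz / 4

variable {A B X S : V →ₗ[ℂ] V}

/-- An eigenvector of `X`. -/
theorem exists_x (h : Rel A B X S) {ω : ℂ} (hω : ω ^ 2 + ω + 1 = 0) {v₀ : V} (hv₀ : X v₀ ≠ v₀) :
    ∃ u : V, u ≠ 0 ∧ X u = ω • u := by
  have h3 : ω ^ 3 = 1 := by linear_combination (ω - 1) * hω
  by_cases h1 : v₀ + ω ^ 2 • X v₀ + ω • X (X v₀) = 0
  · by_cases h2 : v₀ + ω • X v₀ + ω ^ 2 • X (X v₀) = 0
    · exfalso
      have h4 : (ω ^ 2 - ω) • (X v₀ - X (X v₀)) = 0 := by
        have : (ω ^ 2 - ω) • (X v₀ - X (X v₀)) = (v₀ + ω ^ 2 • X v₀ + ω • X (X v₀)) -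
            (v₀ + ω • X v₀ + ω ^ 2 • X (X v₀)) := by module
        rw [this, h1, h2, sub_zero]
      have h5 : ω ^ 2 - ω ≠ 0 := by
        intro h0
        have h6 : ω * (ω - 1) = 0 := by linear_combination h0
        rcases mul_eq_zero.1 h6 with h6 | h6
        · rw [h6] at hω
          norm_num at hω
        · have h7 : ω = 1 := by linear_combination h6
          rw [h7] at hω
          norm_num at hω
      rcases smul_eq_zero.1 h4 with h4 | h4
      · exact h5 h4
      · have h6 : X v₀ = X (X v₀) := sub_eq_zero.1 h4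
        have h7 := congrArg (fun w => X (X w)) h6
        beta_reduce at h7
        rw [h.x3] at h7
        exact hv₀ h7.symm
    · refine ⟨S (v₀ + ω • X v₀ + ω ^ 2 • X (X v₀)), ?_, ?_⟩
      · intro h0
        apply h2
        have h4 := h.s8 (v₀ + ω • X v₀ + ω ^ 2 • X (X v₀))
        rw [h0] at h4
        simp only [map_zero] at h4
        exact h4.symm
      · rw [h.xs, ← map_smul]
        simp only [map_add, map_smul, h.x3]
        linear_combination (norm := module) - (h3 • S (X (X v₀)))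
  · refine ⟨_, h1, ?_⟩
    simp only [map_add, map_smul, h.x3]
    linear_combination (norm := module) - (h3 • (X v₀))

/-- The vector `f₀`. -/
theorem exists_f (h : Rel A B X S) {ω : ℂ} (hω : ω ^ 2 + ω + 1 = 0) {v₀ : V} (hv₀ : X v₀ ≠ v₀) :
    ∃ (f : V) (ε : ℂ), f ≠ 0 ∧ A f = f ∧ X f = ω • f ∧ S (S (S (S f))) = ε • f ∧ ε ^ 2 = 1 := by
  have h3 : ω ^ 3 = 1 := by linear_combination (ω - 1) * hω
  obtain ⟨u, hu, hXu⟩ := exists_x h hω hv₀
  -- an eigenvector of `A`
  obtain ⟨k, p, hp, hXp, hAp⟩ : ∃ (k : ℕ) (p : V), p ≠ 0 ∧ X p = ω • p ∧ A p = ω ^ k • p := by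
    have hX1 : ∀ k : ℕ, X (u + ω ^ (2 * k) • A u + ω ^ k • A (A u)) =
        ω • (u + ω ^ (2 * k) • A u + ω ^ k • A (A u)) := by
      intro k
      simp only [map_add, map_smul, h.xa, hXu, smul_add]
      module
    have hA1 : ∀ k : ℕ, A (u + ω ^ (2 * k) • A u + ω ^ k • A (A u)) =
        ω ^ k • (u + ω ^ (2 * k) • A u + ω ^ k • A (A u)) := by
      intro k
      simp only [map_add, map_smul, h.a3]
      have h4 : ω ^ (3 * k) = 1 := by rw [pow_mul, h3, one_pow]
      linear_combination (norm := (match_scalars <;> ring)) -(h4 • A u)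
    by_contra hcon
    push Not at hcon
    have e : ∀ k : ℕ, u + ω ^ (2 * k) • A u + ω ^ k • A (A u) = 0 := by
      intro k
      by_contra hne
      exact hcon k _ hne (hX1 k) (hA1 k)
    have e0 := e 0
    have e1 := e 1
    have e2 := e 2
    have h5 : (3 : ℂ) • u = 0 := by
      have h6 : ω ^ 4 = ω := by linear_combination ω * h3
      linear_combination (norm := (match_scalars <;> ring_nf)) e0 + e1 + e2 - (h6 • A u) - hω • A u - hω • A (A u)
    rcases smul_eq_zero.1 h5 with h5 | h5
    · norm_num at h5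
    · exact hu h5
  -- make the eigenvalue one
  have step : ∀ j : ℕ, ∃ q : V, q ≠ 0 ∧ X q = ω • q ∧ A q = ω ^ (k + j) • q := by
    intro j
    induction j with
    | zero => exact ⟨p, hp, hXp, hAp⟩
    | succ j ih =>
      obtain ⟨q, hq, hXq, hAq⟩ := ih
      refine ⟨B q, ?_, ?_, ?_⟩
      · intro h0
        apply hq
        have h4 := h.b3 q
        rw [h0] at h4
        simp only [map_zero] at h4
        exact h4.symm
      · rw [h.xb, hXq, map_smul]
      · rw [h.ab, hAq, map_smul, map_smul, h.xb, hXq, map_smul, smul_smul]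
        congr 1
  obtain ⟨q, hq, hXq, hAq⟩ := step (2 * k)
  rw [show k + 2 * k = 3 * k by ring, pow_mul, h3, one_pow, one_smul] at hAq
  -- an eigenvector of `S ^ 4`
  have hT : A (S (S (S (S q)))) = S (S (S (S q))) := by
    have h4 : S (S (S (S (A (A q))))) = A (S (S (S (S q)))) := by
      rw [h.sa, h.sb, h.sa, h.sb, h.a3]
    rw [← h4, hAq, hAq]
  have hX2 : ∀ v, X (S (S v)) = S (S (X v)) := by
    intro v
    have h4 := h.xs (X (S v))
    have h5 : X (S (S v)) = S (X (X (S v))) := h.xs (S v)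
    rw [h5, h.xs, h.xs, h.x3]
  have hXT : X (S (S (S (S q)))) = ω • S (S (S (S q))) := by
    rw [hX2, hX2, hXq]
    simp only [map_smul]
  by_cases h4 : q + S (S (S (S q))) = 0
  · refine ⟨q, -1, hq, hAq, hXq, ?_, by norm_num⟩
    rw [neg_one_smul]
    exact (neg_eq_of_add_eq_zero_right h4).symm
  · refine ⟨q + S (S (S (S q))), 1, h4, ?_, ?_, ?_, by norm_num⟩
    · rw [map_add, hAq, hT]
    · rw [map_add, hXq, hXT, smul_add]
    · simp only [map_add]
      rw [h.s8, one_smul, add_comm]

theorem det_anti (M : Matrix (Fin 3) (Fin 3) ℂ) :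
    (Matrix.fromBlocks 0 M (1 : Matrix (Fin 3) (Fin 3) ℂ) 0).det = - M.det := by
  have h1 : (Matrix.fromBlocks (1 : Matrix (Fin 3) (Fin 3) ℂ) 1 0 1) *
      Matrix.fromBlocks 0 M (1 : Matrix (Fin 3) (Fin 3) ℂ) 0 =
      Matrix.fromBlocks (1 : Matrix (Fin 3) (Fin 3) ℂ) M 1 0 := by
    rw [Matrix.fromBlocks_multiply]
    simp
  have h2 := congrArg Matrix.det h1
  rw [Matrix.det_mul, Matrix.det_fromBlocks_zero₂₁, Matrix.det_one, one_mul, one_mul,
    Matrix.det_fromBlocks_one₁₁] at h2
  rw [h2, one_mul, zero_sub, Matrix.det_neg, Fintype.card_fin]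
  ring

/-- **No invariant symmetric form.** -/
theorem no_form (h : Rel A B X S) (h6 : finrank ℂ V = 6) {v₀ : V} (hv₀ : X v₀ ≠ v₀)
    (hdet : LinearMap.det S = 1) (F : V →ₗ[ℂ] V →ₗ[ℂ] ℂ) (hsym : ∀ v w, F v w = F w v)
    (hFS : ∀ v w, F (S v) (S w) = F v w) (hFX : ∀ v w, F (X v) (X w) = F v w)
    (hnd : ∀ v, (∀ w, F v w = 0) → v = 0) : False := by
  obtain ⟨ω, hω⟩ := exists_omega
  have h3 : ω ^ 3 = 1 := by linear_combination (ω - 1) * hω
  have h4 : ω ^ 4 = ω := by linear_combination ω * h3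
  have hne : ω ^ 2 - ω ≠ 0 := by
    intro h0
    have h6 : ω * (ω - 1) = 0 := by linear_combination h0
    rcases mul_eq_zero.1 h6 with h6 | h6
    · rw [h6] at hω
      norm_num at hω
    · have h7 : ω = 1 := by linear_combination h6
      rw [h7] at hω
      norm_num at hω
  obtain ⟨f, ε, hf, hAf, hXf, hTf, hε⟩ := exists_f h hω hv₀
  have hAf1 : A (B f) = ω • B f := by rw [h.ab, hAf, h.xb, hXf, map_smul]
  have hXf1 : X (B f) = ω • B f := by rw [h.xb, hXf, map_smul]
  have hAf2 : A (B (B f)) = (-1 - ω) • B (B f) := by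
    rw [h.ab, hAf1, map_smul, map_smul, h.xb, hXf1, map_smul, smul_smul]
    congr 1
    linear_combination hω
  have hXf2 : X (B (B f)) = ω • B (B f) := by rw [h.xb, hXf1, map_smul]
  have hXS : ∀ v, X v = ω • v → X (S v) = (-1 - ω) • S v := by
    intro v hv
    rw [h.xs, hv, map_smul, hv, smul_smul, map_smul]
    congr 1
    linear_combination hω
  have hSinj : ∀ v, S v = 0 → v = 0 := by
    intro v hv
    have h5 := h.s8 v
    rw [hv] at h5
    simp only [map_zero] at h5
    exact h5.symm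
  have hBinj : ∀ v, B v = 0 → v = 0 := by
    intro v hv
    have h5 := h.b3 v
    rw [hv] at h5
    simp only [map_zero] at h5
    exact h5.symm
  have hf1 : B f ≠ 0 := fun h0 => hf (hBinj _ h0)
  have hf2 : B (B f) ≠ 0 := fun h0 => hf1 (hBinj _ h0)
  -- independence of the first three vectors
  have ind3 : ∀ a b c : ℂ, a • f + b • B f + c • B (B f) = 0 → a = 0 ∧ b = 0 ∧ c = 0 := by
    intro a b c h0
    have h1 := congrArg A h0
    have h2 := congrArg A h1
    simp only [map_add, map_smul, map_zero, hAf, hAf1, hAf2] at h1 h2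
    have e0 : (3 * a) • f = 0 := by
      linear_combination (norm := module) h0 + h1 + h2 - (b * hω) • B f - (c * hω) • B (B f)
    have e1 : (3 * b) • B f = 0 := by
      linear_combination (norm := module) h0 + (-1 - ω) • h1 + ω • h2 - (b * (ω - 2) * hω) • B f -
        (c * (ω + 2) * hω) • B (B f)
    have e2 : (3 * c) • B (B f) = 0 := by
      linear_combination (norm := module) h0 + ω • h1 + (-1 - ω) • h2 + (b * (ω - 1) * hω) • B f +
        (c * (ω + 3) * hω) • B (B f)
    refine ⟨?_, ?_, ?_⟩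
    · have := (smul_eq_zero.1 e0).resolve_right hf
      linear_combination this / 3
    · have := (smul_eq_zero.1 e1).resolve_right hf1
      linear_combination this / 3
    · have := (smul_eq_zero.1 e2).resolve_right hf2
      linear_combination this / 3
  have h12 : -1 - 2 * ω ≠ 0 := by
    intro h0
    have h1 : ω = -1 / 2 := by linear_combination -h0 / 2
    rw [h1] at hω
    norm_num at hω
  have ind6 : ∀ a b c a' b' c' : ℂ, a • f + b • B f + c • B (B f) +
      (a' • S f + b' • S (B f) + c' • S (B (B f))) = 0 →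
      (a = 0 ∧ b = 0 ∧ c = 0) ∧ (a' = 0 ∧ b' = 0 ∧ c' = 0) := by
    intro a b c a' b' c' h0
    have h1 := congrArg X h0
    simp only [map_add, map_smul, map_zero, hXf, hXf1, hXf2, hXS _ hXf, hXS _ hXf1, hXS _ hXf2] at h1
    have h2 : (-1 - 2 * ω) • (a' • S f + b' • S (B f) + c' • S (B (B f))) = 0 := by
      linear_combination (norm := module) h1 - ω • h0
    have h5 := (smul_eq_zero.1 h2).resolve_left h12
    rw [h5, add_zero] at h0
    refine ⟨ind3 _ _ _ h0, ind3 _ _ _ (hSinj _ ?_)⟩
    simpa only [map_add, map_smul] using h5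
  -- the basis
  let v : Fin 3 ⊕ Fin 3 → V := Sum.elim ![f, B f, B (B f)] ![S f, S (B f), S (B (B f))]
  have hli : LinearIndependent ℂ v := by
    rw [Fintype.linearIndependent_iff]
    intro g hg
    rw [Fintype.sum_sum_type, Fin.sum_univ_three, Fin.sum_univ_three] at hg
    obtain ⟨⟨h1, h2, h5⟩, h7, h8, h9⟩ := ind6 _ _ _ _ _ _ hg
    rintro (i | i)
    · fin_cases i
      exacts [h1, h2, h5]
    · fin_cases i
      exacts [h7, h8, h9]
  have : FiniteDimensional ℂ V := FiniteDimensional.of_finrank_pos (by omega)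
  let bs : Basis (Fin 3 ⊕ Fin 3) ℂ V := basisOfLinearIndependentOfCardEqFinrank hli (by simp [h6])
  have hbs : ∀ i, bs i = v i := fun i => by
    rw [coe_basisOfLinearIndependentOfCardEqFinrank]
  have hexp : ∀ w : V, ∃ a b c a' b' c' : ℂ, w = a • f + b • B f + c • B (B f) +
      (a' • S f + b' • S (B f) + c' • S (B (B f))) := by
    intro w
    have h1 := bs.sum_repr w
    rw [Fintype.sum_sum_type, Fin.sum_univ_three, Fin.sum_univ_three] at h1
    simp only [hbs] at h1
    exact ⟨_, _, _, _, _, _, h1.symm⟩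
  -- the action of `S ^ 2`
  obtain ⟨c, hc⟩ : ∃ c : ℂ, S (S f) = c • f + c • B f + c • B (B f) := by
    obtain ⟨a, b, c, a', b', c', hw⟩ := hexp (S (S f))
    have h1 : X (S (S f)) = ω • S (S f) := by
      rw [h.xs, h.xs, h.xs, h.x3, hXf, map_smul, map_smul]
    have h2 : B (S (S f)) = S (S f) := by rw [← h.sa, hAf]
    rw [hw] at h1 h2
    simp only [map_add, map_smul, hXf, hXf1, hXf2, hXS _ hXf, hXS _ hXf1, hXS _ hXf2] at h1
    obtain ⟨-, h5, h7, h8⟩ := ind6 0 0 0 ((-1 - 2 * ω) * a') ((-1 - 2 * ω) * b') ((-1 - 2 * ω) * c')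
      (by linear_combination (norm := module) h1)
    have ha' := (mul_eq_zero.1 h5).resolve_left h12
    have hb' := (mul_eq_zero.1 h7).resolve_left h12
    have hc' := (mul_eq_zero.1 h8).resolve_left h12
    subst ha' hb' hc'
    simp only [zero_smul, add_zero] at hw h2
    simp only [map_add, map_smul, h.b3] at h2
    obtain ⟨h9, h10, -⟩ := ind3 (c - a) (a - b) (b - c) (by linear_combination (norm := module) h2)
    have h11 : c = a := by linear_combination h9
    have h12 : b = a := by linear_combination -h10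
    exact ⟨a, by rw [hw, h11, h12]⟩
  have hc1 : S (S (B f)) = c • f + (c * (-1 - ω)) • B f + (c * ω) • B (B f) := by
    rw [h.sb, hc]
    simp only [map_add, map_smul, hAf, hAf1, hAf2]
    linear_combination (norm := module) (c * hω) • B f + (c * hω) • B (B f)
  have hc2 : S (S (B (B f))) = c • f + (c * ω) • B f + (c * (-1 - ω)) • B (B f) := by
    rw [h.sb, hc1]
    simp only [map_add, map_smul, hAf, hAf1, hAf2]
    linear_combination (norm := module) -(c * ω * hω) • B f + (c * (ω + 1) * hω) • B (B f)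
  -- the determinant
  have hM : LinearMap.toMatrix bs bs S = Matrix.fromBlocks 0
      !![c, c, c; c, c * (-1 - ω), c * ω; c, c * ω, c * (-1 - ω)] (1 : Matrix (Fin 3) (Fin 3) ℂ) 0 := by
    have hcol : ∀ (j : Fin 3 ⊕ Fin 3) (M : Matrix (Fin 3 ⊕ Fin 3) (Fin 3 ⊕ Fin 3) ℂ),
        S (v j) = ∑ i, M i j • v i → ∀ i, LinearMap.toMatrix bs bs S i j = M i j := by
      intro j M hj i
      rw [LinearMap.toMatrix_apply, hbs, hj, map_sum, Finsupp.finsetSum_apply]
      rw [Finset.sum_eq_single i]
      · rw [map_smul, ← hbs, Finsupp.smul_apply, Basis.repr_self, Finsupp.single_eq_same, smul_eq_mul,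
          mul_one]
      · intro k _ hk
        rw [map_smul, ← hbs, Finsupp.smul_apply, Basis.repr_self, Finsupp.single_eq_of_ne hk.symm,
          smul_zero]
      · intro hi
        exact absurd (Finset.mem_univ _) hi
    ext i j
    apply hcol
    rw [Fintype.sum_sum_type, Fin.sum_univ_three, Fin.sum_univ_three]
    rcases j with j | j
    · fin_cases j <;> simp [v, Matrix.fromBlocks]
    · fin_cases j <;> simp [v, Matrix.fromBlocks, hc, hc1, hc2]
  have hdM : (!![c, c, c; c, c * (-1 - ω), c * ω; c, c * ω, c * (-1 - ω)] : Matrix (Fin 3) (Fin 3) ℂ).det =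
      3 * c ^ 3 * (1 + 2 * ω) := by
    rw [Matrix.det_fin_three]
    simp
    ring
  rw [← LinearMap.det_toMatrix bs, hM, det_anti, hdM] at hdet
  have hε3 : 3 * c ^ 2 = ε := by
    have h1 : S (S (S (S f))) = (3 * c ^ 2) • f := by
      rw [hc]
      simp only [map_add, map_smul, hc, hc1, hc2]
      module
    rw [hTf] at h1
    obtain ⟨h2, -, -⟩ := ind3 (ε - 3 * c ^ 2) 0 0 (by linear_combination (norm := module) h1)
    linear_combination -h2
  have hdet2 : -ε * (c * (1 + 2 * ω)) = 1 := by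
    rw [← hε3]
    linear_combination hdet
  have hsq : (1 + 2 * ω) ^ 2 = -3 := by linear_combination 4 * hω
  have hε1 : ε = -1 := by
    have h1 : (-ε * (c * (1 + 2 * ω))) ^ 2 = 1 := by rw [hdet2, one_pow]
    have h2 : ε ^ 2 * c ^ 2 * (1 + 2 * ω) ^ 2 = 1 := by linear_combination h1
    rw [hε, hsq] at h2
    linear_combination -h2 - hε3
  have hc3 : c * (1 + 2 * ω) = 1 := by
    rw [hε1] at hdet2
    linear_combination hdet2
  have hc4 : 3 * c ^ 2 = -1 := by rw [hε3, hε1]
  have hg : S (S (B f - B (B f))) = -(B f - B (B f)) := by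
    rw [map_sub, map_sub, hc1, hc2]
    linear_combination (norm := module) -(hc3 • B f) + hc3 • B (B f)
  have hgT : S (S (S (S (B f - B (B f))))) = B f - B (B f) := by
    rw [hg, map_neg, map_neg, hg, neg_neg]
  have hp : S (S (S (S (B f + B (B f))))) = -(B f + B (B f)) := by
    rw [map_add, map_add, hc1, hc2]
    simp only [map_add, map_smul, hc, hc1, hc2]
    linear_combination (norm := module) hc4 • B f + hc4 • B (B f)
  have hfT : S (S (S (S f))) = -f := by rw [hTf, hε1, neg_one_smul]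
  have k1 : F (B f - B (B f)) (S (B f - B (B f))) = 0 := by
    have h1 := hFS (B f - B (B f)) (S (B f - B (B f)))
    rw [hg, map_neg, hsym (S _)] at h1
    linear_combination -h1 / 2
  have kT : ∀ w, S (S (S (S w))) = -w → F (B f - B (B f)) (S w) = 0 := by
    intro w hw
    have h1 : F (S (S (S (S (B f - B (B f)))))) (S (S (S (S (S w))))) = F (B f - B (B f)) (S w) := by
      rw [hFS, hFS, hFS, hFS]
    rw [hgT, hw, map_neg, map_neg] at h1
    linear_combination -h1 / 2
  have kX : ∀ w, X w = ω • w → F (B f - B (B f)) w = 0 := by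
    intro w hw
    have h1 := hFX (B f - B (B f)) w
    rw [map_sub, hXf1, hXf2, ← smul_sub, hw, map_smul, map_smul, LinearMap.smul_apply, smul_eq_mul,
      smul_eq_mul] at h1
    have h2 : (-2 - ω) * F (B f - B (B f)) w = 0 := by linear_combination h1 - hω * F (B f - B (B f)) w
    refine (mul_eq_zero.1 h2).resolve_left fun h0 => ?_
    have h5 : ω = -2 := by linear_combination -h0
    rw [h5] at hω
    norm_num at hω
  have hzero : B f - B (B f) = 0 := by
    apply hnd
    intro w
    obtain ⟨a, b, c, a', b', c', hw⟩ := hexp w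
    have h1 := kT f hfT
    have h2 := kT _ hp
    rw [map_add, map_add] at h2
    have h5 := k1
    rw [map_sub S, map_sub (F _)] at h5
    rw [hw]
    simp only [map_add (F _), map_smul (F _), smul_eq_mul]
    rw [kX f hXf, kX _ hXf1, kX _ hXf2, h1]
    linear_combination (b' / 2) * (h2 + h5) + (c' / 2) * (h2 - h5)
  obtain ⟨-, h1, -⟩ := ind3 0 1 (-1) (by linear_combination (norm := module) hzero)
  exact one_ne_zero h1

end Cfsg.Agent.H612.UThreeLin
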